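import Mathlib
import Cfsg.Agent.H159.SpEnd
import Cfsg.Agent.ClassicalGeometry.TwoFamilies

/-!
# Alternating matrices of size six over the field of three elements (helper450)

* `det_ne` : the determinant of an alternating `6 × 6` matrix over `ZMod 3` is not `-1`;
* `even_ker` : the kernel of such a matrix has even dimension.
-/

set_option autoImplicit false
set_option maxRecDepth 100000

namespace Cfsg.Agent.H450.LSix

open Matrix Module

abbrev M6 := Matrix (Fin 6) (Fin 6) (ZMod 3)

theorem isAlt {K : M6} (hK : Kᵀ = -K) : (Matrix.toBilin' K).IsAlt := by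
  intro v
  rw [Matrix.toBilin'_apply']
  have h1 : v ⬝ᵥ K *ᵥ v = - (v ⬝ᵥ K *ᵥ v) := by
    conv_lhs => rw [Matrix.dotProduct_mulVec, ← Matrix.mulVec_transpose, hK, Matrix.neg_mulVec,
      neg_dotProduct, dotProduct_comm]
  have h2 : ∀ a : ZMod 3, a = -a → a = 0 := by decide
  exact h2 _ h1

/-- Laplace expansion, evaluated by the kernel -/
def lap : ∀ n : ℕ, Matrix (Fin n) (Fin n) (ZMod 3) → ZMod 3
  | 0, _ => 1
  | n + 1, M => ((List.finRange (n + 1)).map fun j => if M 0 j = 0 then 0 else
      (-1) ^ (j : ℕ) * M 0 j * lap n (M.submatrix Fin.succ j.succAbove)).sum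

theorem lap_succ (n : ℕ) (M : Matrix (Fin (n + 1)) (Fin (n + 1)) (ZMod 3)) : lap (n + 1) M =
    ((List.finRange (n + 1)).map fun j => if M 0 j = 0 then 0 else
      (-1) ^ (j : ℕ) * M 0 j * lap n (M.submatrix Fin.succ j.succAbove)).sum := rfl

theorem lap_zero (M : Matrix (Fin 0) (Fin 0) (ZMod 3)) : lap 0 M = 1 := rfl

theorem lap_eq : ∀ (n : ℕ) (M : Matrix (Fin n) (Fin n) (ZMod 3)), lap n M = M.det
  | 0, M => by rw [lap_zero]; simp
  | n + 1, M => by
    rw [lap_succ, Matrix.det_succ_row_zero, Fin.sum_univ_def]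
    congr 1
    apply List.map_congr_left
    intro j _
    split_ifs with h
    · rw [h]; simp
    · rw [lap_eq n]

def J6 : M6 := !![0,0,0,2,0,0;0,0,0,0,2,0;0,0,0,0,0,2;1,0,0,0,0,0;0,1,0,0,0,0;0,0,1,0,0,0]

theorem det_J6 : J6.det = 1 := by
  rw [← lap_eq]; decide +kernel

theorem J_reindex : (Matrix.J (Fin 3) (ZMod 3)).submatrix finSumFinEquiv.symm finSumFinEquiv.symm = J6 := by
  decide +kernel

theorem det_J : (Matrix.J (Fin 3) (ZMod 3)).det = 1 := by
  rw [← Matrix.det_submatrix_equiv_self finSumFinEquiv.symm, J_reindex, det_J6]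

theorem det_ne {K : M6} (hK : Kᵀ = -K) : K.det ≠ -1 := by
  intro hd
  have hd0 : K.det ≠ 0 := by rw [hd]; decide
  have hnd : (Matrix.toBilin' K).Nondegenerate :=
    LinearMap.BilinForm.nondegenerate_toBilin'_of_det_ne_zero' _ hd0
  obtain ⟨b, hb⟩ := H159.exists_symp_basis (n := 3) (Matrix.toBilin' K) (isAlt hK) hnd
    (by rw [Module.finrank_fin_fun])
  let c : Basis (Fin 6) (ZMod 3) (Fin 6 → ZMod 3) := b.reindex finSumFinEquiv
  have h1 : LinearMap.BilinForm.toMatrix c (Matrix.toBilin' K) = - J6 := by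
    rw [← J_reindex]
    ext i j
    have h2 := congrFun (congrFun hb (finSumFinEquiv.symm i)) (finSumFinEquiv.symm j)
    rw [LinearMap.BilinForm.toMatrix_apply] at h2 ⊢
    rw [Basis.reindex_apply, Basis.reindex_apply, h2]
    rfl
  have h3 := LinearMap.BilinForm.toMatrix_mul_basis_toMatrix (Pi.basisFun (ZMod 3) (Fin 6)) c (Matrix.toBilin' K)
  rw [h1] at h3
  have h4 : LinearMap.BilinForm.toMatrix (Pi.basisFun (ZMod 3) (Fin 6)) (Matrix.toBilin' K) = K := by
    rw [LinearMap.BilinForm.toMatrix_basisFun]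
    exact LinearMap.BilinForm.toMatrix'_toBilin' K
  rw [h4] at h3
  have h5 := congrArg Matrix.det h3
  rw [det_mul, det_mul, det_transpose, det_neg, det_J6, hd] at h5
  simp only [Fintype.card_fin] at h5
  revert h5
  generalize (((Pi.basisFun (ZMod 3) (Fin 6)).toMatrix c).det : ZMod 3) = a
  revert a
  decide

theorem even_ker {K : M6} (hK : Kᵀ = -K) : Even (finrank (ZMod 3) (LinearMap.ker (Matrix.toLin' K))) := by
  obtain ⟨m, hm⟩ := ClassicalGeometry.TwoFamilies.exists_finrank_eq_ker_add (Matrix.toBilin' K) (isAlt hK)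
  have h1 : LinearMap.ker (Matrix.toBilin' K) = LinearMap.ker (Matrix.toLin' K) := by
    ext v
    rw [LinearMap.mem_ker, LinearMap.mem_ker, Matrix.toLin'_apply]
    constructor
    · intro h
      have h2 : ∀ w, v ⬝ᵥ K *ᵥ w = 0 := fun w => by
        have := congrArg (fun f => f w) h
        change Matrix.toBilin' K v w = 0 at this
        rwa [Matrix.toBilin'_apply'] at this
      ext i
      have h3 := h2 (Pi.single i 1)
      rw [Matrix.dotProduct_mulVec, ← Matrix.mulVec_transpose, hK, Matrix.neg_mulVec, dotProduct_single,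
        mul_one] at h3
      simpa using h3
    · intro h
      ext w
      simp only [LinearMap.comp_apply, LinearMap.zero_apply]
      rw [Matrix.toBilin'_apply', Matrix.dotProduct_mulVec, ← Matrix.mulVec_transpose, hK, Matrix.neg_mulVec, h,
        neg_zero, zero_dotProduct]
  rw [h1, Module.finrank_fin_fun] at hm
  refine ⟨3 - m, ?_⟩
  omega

end Cfsg.Agent.H450.LSix
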