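import Mathlib
import Cfsg.Agent.H450.LSix.Alt

/-!
# Cosquares over the field of three elements in dimension six (helper450)

`main` : if `g` is a `6 × 6` matrix of determinant one over `ZMod 3` and `g * B = gᵀ` then `B ^ k = ± 1` for some
`k` in `{7, 8, 12, 13, 18, 20, 30}`. The characteristic polynomial of `B` is palindromic (27 possibilities), its
value at 1 is not `-1` (determinants of alternating matrices), and the kernel of `B - 1` has even dimension.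
-/

set_option autoImplicit false
set_option maxRecDepth 100000

namespace Cfsg.Agent.H450.LSix

open Matrix Module Polynomial

set_option linter.unusedSimpArgs false

theorem h3 : (3 : (ZMod 3)[X]) = 0 := by
  have : (3 : (ZMod 3)[X]) = C 3 := rfl
  rw [this, show (3 : ZMod 3) = 0 from rfl, C_0]

theorem hC0 : (C 0 : (ZMod 3)[X]) = 0 := C_0
theorem hC1 : (C 1 : (ZMod 3)[X]) = 1 := C_1
theorem hC2 : (C 2 : (ZMod 3)[X]) = 2 := rfl

theorem c001 : (X ^ 6 + C 0 * X ^ 5 + C 0 * X ^ 4 + C 1 * X ^ 3 + C 0 * X ^ 2 + C 0 * X + 1 : (ZMod 3)[X]) ∣ X ^ 18 - 1 :=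
  ⟨X^12 - X^9 + X^3 - 1, by
    simp only [hC0, hC1, hC2]
    linear_combination (0) * h3⟩

theorem c002 : (X ^ 6 + C 0 * X ^ 5 + C 0 * X ^ 4 + C 2 * X ^ 3 + C 0 * X ^ 2 + C 0 * X + 1 : (ZMod 3)[X]) ∣ X ^ 18 - 1 :=
  ⟨X^12 + X^9 - X^3 - 1, by
    simp only [hC0, hC1, hC2]
    linear_combination (- X^15 - X^12 + X^6 + X^3) * h3⟩

theorem c010 : (X ^ 6 + C 0 * X ^ 5 + C 1 * X ^ 4 + C 0 * X ^ 3 + C 1 * X ^ 2 + C 0 * X + 1 : (ZMod 3)[X]) ∣ X ^ 8 - 1 :=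
  ⟨X^2 - 1, by
    simp only [hC0, hC1, hC2]
    linear_combination (0) * h3⟩

theorem c012 : (X ^ 6 + C 0 * X ^ 5 + C 1 * X ^ 4 + C 2 * X ^ 3 + C 1 * X ^ 2 + C 0 * X + 1 : (ZMod 3)[X]) ∣ X ^ 30 - 1 :=
  ⟨X^24 - X^22 + X^21 + X^19 + X^18 + X^17 + X^16 + X^15 - X^14 + X^13 - X^11 + X^10 - X^9 - X^8 - X^7 - X^6 - X^5 - X^3 + X^2 - 1, by
    simp only [hC0, hC1, hC2]
    linear_combination (- X^27 - X^24 - X^23 - X^22 - 2*X^21 - X^20 - 2*X^19 - X^18 - X^16 + X^14 + X^12 + 2*X^11 + X^10 + 2*X^9 + X^8 + X^7 + X^6 + X^3) * h3⟩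

theorem c020 : (X ^ 6 + C 0 * X ^ 5 + C 2 * X ^ 4 + C 0 * X ^ 3 + C 2 * X ^ 2 + C 0 * X + 1 : (ZMod 3)[X]) ∣ X ^ 12 - 1 :=
  ⟨X^6 + X^4 - X^2 - 1, by
    simp only [hC0, hC1, hC2]
    linear_combination (- X^10 - X^8 + X^4 + X^2) * h3⟩

theorem c021 : (X ^ 6 + C 0 * X ^ 5 + C 2 * X ^ 4 + C 1 * X ^ 3 + C 2 * X ^ 2 + C 0 * X + 1 : (ZMod 3)[X]) ∣ X ^ 13 + 1 :=
  ⟨X^7 + X^5 - X^4 - X^3 + X^2 + 1, by
    simp only [hC0, hC1, hC2]
    linear_combination (- X^11 - X^9 - X^4 - X^2) * h3⟩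

theorem c100 : (X ^ 6 + C 1 * X ^ 5 + C 0 * X ^ 4 + C 0 * X ^ 3 + C 0 * X ^ 2 + C 1 * X + 1 : (ZMod 3)[X]) ∣ X ^ 30 - 1 :=
  ⟨X^24 - X^23 + X^22 - X^21 + X^20 + X^19 - X^18 + X^17 - X^16 + X^15 - X^9 + X^8 - X^7 + X^6 - X^5 - X^4 + X^3 - X^2 + X - 1, by
    simp only [hC0, hC1, hC2]
    linear_combination (- X^25 - X^20 + X^10 + X^5) * h3⟩

theorem c102 : (X ^ 6 + C 1 * X ^ 5 + C 0 * X ^ 4 + C 2 * X ^ 3 + C 0 * X ^ 2 + C 1 * X + 1 : (ZMod 3)[X]) ∣ X ^ 12 - 1 :=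
  ⟨X^6 - X^5 + X^4 - X^2 + X - 1, by
    simp only [hC0, hC1, hC2]
    linear_combination (- X^9 + X^8 - X^7 + X^5 - X^4 + X^3) * h3⟩

theorem c111 : (X ^ 6 + C 1 * X ^ 5 + C 1 * X ^ 4 + C 1 * X ^ 3 + C 1 * X ^ 2 + C 1 * X + 1 : (ZMod 3)[X]) ∣ X ^ 7 - 1 :=
  ⟨X - 1, by
    simp only [hC0, hC1, hC2]
    linear_combination (0) * h3⟩

theorem c121 : (X ^ 6 + C 1 * X ^ 5 + C 2 * X ^ 4 + C 1 * X ^ 3 + C 2 * X ^ 2 + C 1 * X + 1 : (ZMod 3)[X]) ∣ X ^ 18 - 1 :=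
  ⟨X^12 - X^11 - X^10 - X^9 - X^8 - X^7 + X^5 + X^4 + X^3 + X^2 + X - 1, by
    simp only [hC0, hC1, hC2]
    linear_combination (X^15 + X^14 + 2*X^13 + 2*X^12 + 2*X^11 + X^10 - X^8 - 2*X^7 - 2*X^6 - 2*X^5 - X^4 - X^3) * h3⟩

theorem c122 : (X ^ 6 + C 1 * X ^ 5 + C 2 * X ^ 4 + C 2 * X ^ 3 + C 2 * X ^ 2 + C 1 * X + 1 : (ZMod 3)[X]) ∣ X ^ 20 - 1 :=
  ⟨X^14 - X^13 - X^12 + X^11 + X^10 + X^8 - X^6 - X^4 - X^3 + X^2 + X - 1, by
    simp only [hC0, hC1, hC2]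
    linear_combination (- X^14 - X^13 - X^12 - X^11 + X^9 + X^8 + X^7 + X^6) * h3⟩

theorem c200 : (X ^ 6 + C 2 * X ^ 5 + C 0 * X ^ 4 + C 0 * X ^ 3 + C 0 * X ^ 2 + C 2 * X + 1 : (ZMod 3)[X]) ∣ X ^ 30 - 1 :=
  ⟨X^24 + X^23 + X^22 + X^21 + X^20 - X^19 - X^18 - X^17 - X^16 - X^15 + X^9 + X^8 + X^7 + X^6 + X^5 - X^4 - X^3 - X^2 - X - 1, by
    simp only [hC0, hC1, hC2]
    linear_combination (- X^29 - X^28 - X^27 - X^26 - X^25 + X^20 + X^19 + X^18 + X^17 + X^16 - X^14 - X^13 - X^12 - X^11 - X^10 + X^5 + X^4 + X^3 + X^2 + X) * h3⟩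

theorem c201 : (X ^ 6 + C 2 * X ^ 5 + C 0 * X ^ 4 + C 1 * X ^ 3 + C 0 * X ^ 2 + C 2 * X + 1 : (ZMod 3)[X]) ∣ X ^ 12 - 1 :=
  ⟨X^6 + X^5 + X^4 - X^2 - X - 1, by
    simp only [hC0, hC1, hC2]
    linear_combination (- X^11 - X^10 - X^9 + X^3 + X^2 + X) * h3⟩

theorem c212 : (X ^ 6 + C 2 * X ^ 5 + C 1 * X ^ 4 + C 2 * X ^ 3 + C 1 * X ^ 2 + C 2 * X + 1 : (ZMod 3)[X]) ∣ X ^ 7 + 1 :=
  ⟨X + 1, by
    simp only [hC0, hC1, hC2]
    linear_combination (- X^6 - X^5 - X^4 - X^3 - X^2 - X) * h3⟩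

theorem c220 : (X ^ 6 + C 2 * X ^ 5 + C 2 * X ^ 4 + C 0 * X ^ 3 + C 2 * X ^ 2 + C 2 * X + 1 : (ZMod 3)[X]) ∣ X ^ 13 + 1 :=
  ⟨X^7 + X^6 - X^5 - X^2 + X + 1, by
    simp only [hC0, hC1, hC2]
    linear_combination (- X^12 - X^11 - X^8 - X^5 - X^2 - X) * h3⟩

theorem c222 : (X ^ 6 + C 2 * X ^ 5 + C 2 * X ^ 4 + C 2 * X ^ 3 + C 2 * X ^ 2 + C 2 * X + 1 : (ZMod 3)[X]) ∣ X ^ 18 - 1 :=
  ⟨X^12 + X^11 - X^10 + X^9 - X^8 + X^7 - X^5 + X^4 - X^3 + X^2 - X - 1, by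
    simp only [hC0, hC1, hC2]
    linear_combination (- X^17 - X^16 - X^15 - X^14 - X^13 - X^12 + X^6 + X^5 + X^4 + X^3 + X^2 + X) * h3⟩

theorem s110 : (X ^ 6 + C 1 * X ^ 5 + C 1 * X ^ 4 + C 0 * X ^ 3 + C 1 * X ^ 2 + C 1 * X + 1 : (ZMod 3)[X]) =
    (X - 1) ^ 2 * (X ^ 4 + 1) := by
  simp only [hC0, hC1, hC2]
  linear_combination (X ^ 5 + X) * h3

theorem s211 : (X ^ 6 + C 2 * X ^ 5 + C 1 * X ^ 4 + C 1 * X ^ 3 + C 1 * X ^ 2 + C 2 * X + 1 : (ZMod 3)[X]) =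
    (X - 1) ^ 4 * (X ^ 2 + 1) := by
  simp only [hC0, hC1, hC2]
  linear_combination (2 * X ^ 5 - 2 * X ^ 4 + 3 * X ^ 3 - 2 * X ^ 2 + 2 * X) * h3

theorem d110 : (X - 1) * (X ^ 4 + 1) ∣ (X ^ 8 - 1 : (ZMod 3)[X]) :=
  ⟨X ^ 3 + X ^ 2 + X + 1, by ring⟩

theorem d211 : (X - 1) ^ 3 * (X ^ 2 + 1) ∣ (X ^ 12 - 1 : (ZMod 3)[X]) :=
  ⟨(X + 1) ^ 3 * (X ^ 2 + 1) ^ 2, by linear_combination (X ^ 8 - X ^ 4) * h3⟩

section facts

variable {g B : M6}

theorem det_B (hd : g.det = 1) (hB : g * B = gᵀ) : B.det = 1 := by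
  have := congrArg Matrix.det hB
  rwa [det_mul, det_transpose, hd, one_mul] at this

theorem charpoly_inv_eq (hd : g.det = 1) (hB : g * B = gᵀ) : B⁻¹.charpoly = B.charpoly := by
  have hdB := det_B hd hB
  have h1 : Bᵀ * g * B = g := by
    rw [mul_assoc, hB, ← transpose_mul, hB, transpose_transpose]
  have hu : IsUnit g.det := by rw [hd]; exact isUnit_one
  have huB : IsUnit B.det := by rw [hdB]; exact isUnit_one
  have h2 : B⁻¹ = g⁻¹ * Bᵀ * g := by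
    rw [Matrix.inv_eq_left_inv]
    rw [mul_assoc, mul_assoc, ← mul_assoc Bᵀ, h1, Matrix.nonsing_inv_mul _ hu]
  rw [h2]
  have := Matrix.charpoly_units_conj' (Matrix.nonsingInvUnit g hu) Bᵀ
  rw [Matrix.charpoly_transpose] at this
  exact this

theorem coeff_pal (hd : g.det = 1) (hB : g * B = gᵀ) {i : ℕ} (hi : i ≤ 6) :
    B.charpoly.coeff i = B.charpoly.coeff (6 - i) := by
  have hdB := det_B hd hB
  have h1 := Matrix.charpoly_inv B ((Matrix.isUnit_iff_isUnit_det B).2 (by rw [hdB]; exact isUnit_one))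
  rw [charpoly_inv_eq hd hB, hdB, ← Matrix.reverse_charpoly, Fintype.card_fin] at h1
  have h2 : ((-1) ^ 6 * C (Ring.inverse (1 : ZMod 3)) : (ZMod 3)[X]) = 1 := by
    rw [Ring.inverse_one, C_1]; norm_num
  rw [h2, one_mul] at h1
  have hnd : B.charpoly.natDegree = 6 := by rw [Matrix.charpoly_natDegree_eq_dim, Fintype.card_fin]
  conv_lhs => rw [h1]
  rw [coeff_reverse, hnd, revAt_le hi]

theorem charpoly_eq (hd : g.det = 1) (hB : g * B = gᵀ) : B.charpoly = X ^ 6 + C (B.charpoly.coeff 5) * X ^ 5 +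
    C (B.charpoly.coeff 4) * X ^ 4 + C (B.charpoly.coeff 3) * X ^ 3 + C (B.charpoly.coeff 4) * X ^ 2 +
    C (B.charpoly.coeff 5) * X + 1 := by
  have hnd : B.charpoly.natDegree = 6 := by rw [Matrix.charpoly_natDegree_eq_dim, Fintype.card_fin]
  have h6 : B.charpoly.coeff 6 = 1 := by
    have := B.charpoly_monic
    rwa [Monic, leadingCoeff, hnd] at this
  have h0 : B.charpoly.coeff 0 = 1 := by rw [coeff_pal hd hB (by norm_num)]; exact h6
  have h1 : B.charpoly.coeff 1 = B.charpoly.coeff 5 := coeff_pal hd hB (by norm_num)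
  have h2 : B.charpoly.coeff 2 = B.charpoly.coeff 4 := coeff_pal hd hB (by norm_num)
  have h := B.charpoly.as_sum_range_C_mul_X_pow
  rw [hnd] at h
  conv_lhs => rw [h]
  simp only [Finset.sum_range_succ, Finset.sum_range_zero, h6, h0, h1, h2]
  simp only [pow_zero, pow_one, mul_one, C_1, one_mul]
  ring

theorem alt_sub : (g - gᵀ)ᵀ = -(g - gᵀ) := by
  rw [transpose_sub, transpose_transpose, neg_sub]

theorem eval_ne (hd : g.det = 1) (hB : g * B = gᵀ) : B.charpoly.eval 1 ≠ -1 := by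
  intro h
  rw [Matrix.eval_charpoly] at h
  have h1 : g * (Matrix.scalar (Fin 6) 1 - B) = g - gᵀ := by rw [map_one, mul_sub, mul_one, hB]
  have h2 := congrArg Matrix.det h1
  rw [det_mul, hd, one_mul, h] at h2
  exact det_ne alt_sub h2.symm

theorem even_ker_sub (hd : g.det = 1) (hB : g * B = gᵀ) :
    Even (finrank (ZMod 3) (LinearMap.ker (Matrix.toLin' B - 1))) := by
  have h1 := even_ker (K := g - gᵀ) alt_sub
  have h2 : LinearMap.ker (Matrix.toLin' (g - gᵀ)) = LinearMap.ker (Matrix.toLin' B - 1) := by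
    ext v
    rw [LinearMap.mem_ker, LinearMap.mem_ker, Matrix.toLin'_apply, LinearMap.sub_apply, Matrix.toLin'_apply,
      Module.End.one_apply, ← hB, Matrix.sub_mulVec, ← Matrix.mulVec_mulVec, ← Matrix.mulVec_sub]
    have hu : IsUnit g := (Matrix.isUnit_iff_isUnit_det g).2 (by rw [hd]; exact isUnit_one)
    have hinj : Function.Injective g.mulVec := Matrix.mulVec_injective_iff_isUnit.2 hu
    constructor
    · intro h
      have h3 : v - B *ᵥ v = 0 := hinj (by rw [h, Matrix.mulVec_zero])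
      rw [← neg_sub, h3, neg_zero]
    · intro h
      rw [← neg_sub, h, neg_zero, Matrix.mulVec_zero]
  rwa [h2] at h1

/-- strictly increasing kernels -/
theorem stab {V : Type*} [AddCommGroup V] [Module (ZMod 3) V] [FiniteDimensional (ZMod 3) V] (N : End (ZMod 3) V)
    (r : ℕ) (hr : 1 ≤ r) (h1 : 2 ≤ finrank (ZMod 3) (LinearMap.ker N))
    (h2 : finrank (ZMod 3) (LinearMap.ker (N ^ r)) ≤ r) (v : V) (hv : (N ^ r) v = 0) : (N ^ (r - 1)) v = 0 := by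
  by_contra hne
  have key : ∀ i, i + 1 ≤ r → i + 2 ≤ finrank (ZMod 3) (LinearMap.ker (N ^ (i + 1))) := by
    intro i
    induction i with
    | zero => intro _; rw [zero_add, pow_one]; exact h1
    | succ i ih =>
      intro hi
      have h3 := ih (by omega)
      have h4 : LinearMap.ker (N ^ (i + 1)) < LinearMap.ker (N ^ (i + 1 + 1)) := by
        refine lt_of_le_of_ne ?_ ?_
        · intro w hw
          rw [LinearMap.mem_ker] at hw ⊢
          rw [pow_succ', Module.End.mul_apply, hw, map_zero]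
        · intro h
          have h5 : (N ^ (r - 2 - i)) v ∈ LinearMap.ker (N ^ (i + 1 + 1)) := by
            rw [LinearMap.mem_ker, ← Module.End.mul_apply, ← pow_add, show i + 1 + 1 + (r - 2 - i) = r by omega]
            exact hv
          rw [← h, LinearMap.mem_ker, ← Module.End.mul_apply, ← pow_add,
            show i + 1 + (r - 2 - i) = r - 1 by omega] at h5
          exact hne h5
      have := Submodule.finrank_lt_finrank_of_lt h4
      omega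
  obtain ⟨i, rfl⟩ : ∃ i, r = i + 1 := ⟨r - 1, by omega⟩
  have := key i le_rfl
  omega

theorem special (hd : g.det = 1) (hB : g * B = gᵀ) (r : ℕ) (hr : 1 ≤ r) (q : (ZMod 3)[X]) (hq : q.eval 1 ≠ 0)
    (hχ : B.charpoly = (X - 1) ^ r * q) : aeval B ((X - 1) ^ (r - 1) * q) = 0 := by
  set φ : End (ZMod 3) (Fin 6 → ZMod 3) := Matrix.toLin' B with hφ
  have hcp : φ.charpoly = (X - 1) ^ r * q := by rw [hφ, Matrix.charpoly_toLin', hχ]
  have hroot : φ.charpoly.rootMultiplicity 1 ≤ r := by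
    by_contra h
    have h1 : (X - C (1 : ZMod 3)) ^ (r + 1) ∣ φ.charpoly := by
      rw [← le_rootMultiplicity_iff (φ.charpoly_monic.ne_zero)]
      omega
    rw [hcp, C_1, pow_succ] at h1
    have h2 : (X - 1 : (ZMod 3)[X]) ∣ q := by
      have hne : ((X - 1 : (ZMod 3)[X]) ^ r) ≠ 0 := pow_ne_zero _ (by rw [← C_1]; exact X_sub_C_ne_zero 1)
      exact (mul_dvd_mul_iff_left hne).1 h1
    rw [← C_1, dvd_iff_isRoot] at h2
    exact hq h2
  have hN : ∀ k : ℕ, finrank (ZMod 3) (LinearMap.ker ((φ - 1) ^ k)) ≤ r := by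
    intro k
    have h1 := LinearMap.finrank_genEigenspace_le φ 1 k
    rw [Module.End.genEigenspace_nat, one_smul] at h1
    exact h1.trans hroot
  have hev : Even (finrank (ZMod 3) (LinearMap.ker (φ - 1))) := even_ker_sub hd hB
  have hpos : 0 < finrank (ZMod 3) (LinearMap.ker (φ - 1)) := by
    have h1 : φ.HasEigenvalue 1 := by
      rw [Module.End.hasEigenvalue_iff_isRoot_charpoly, hcp, IsRoot, eval_mul, eval_pow, eval_sub, eval_X, eval_one,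
        sub_self, zero_pow (by omega), zero_mul]
    obtain ⟨v, hv⟩ := h1.exists_hasEigenvector
    have h2 : v ∈ LinearMap.ker (φ - 1) := by
      rw [LinearMap.mem_ker, LinearMap.sub_apply, hv.apply_eq_smul, one_smul, Module.End.one_apply, sub_self]
    rw [Module.finrank_pos_iff_exists_ne_zero]
    exact ⟨⟨v, h2⟩, fun h => hv.2 (congrArg Subtype.val h)⟩
  have h2 : 2 ≤ finrank (ZMod 3) (LinearMap.ker (φ - 1)) := by
    obtain ⟨m, hm⟩ := hev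
    omega
  have hCH : aeval φ ((X - 1) ^ r * q) = 0 := by
    rw [← hcp]; exact φ.aeval_self_charpoly
  have hfin : aeval φ ((X - 1) ^ (r - 1) * q) = 0 := by
    refine LinearMap.ext fun v => ?_
    have h3 : ((φ - 1) ^ r) (aeval φ q v) = 0 := by
      have := congrArg (fun f => f v) hCH
      simpa only [map_mul, map_pow, map_sub, aeval_X, map_one, Module.End.mul_apply, LinearMap.zero_apply] using this
    have h4 := stab (φ - 1) r hr h2 (hN r) _ h3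
    simpa only [map_mul, map_pow, map_sub, aeval_X, map_one, Module.End.mul_apply, LinearMap.zero_apply] using h4
  have h5 : aeval φ ((X - 1) ^ (r - 1) * q) = Matrix.toLinAlgEquiv' (aeval B ((X - 1) ^ (r - 1) * q)) :=
    Polynomial.aeval_algHom_apply (Matrix.toLinAlgEquiv' : M6 ≃ₐ[ZMod 3] _).toAlgHom B _
  rw [h5] at hfin
  exact (map_eq_zero_iff _ (Matrix.toLinAlgEquiv' : M6 ≃ₐ[ZMod 3] _).injective).1 hfin

theorem main (hd : g.det = 1) (hB : g * B = gᵀ) :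
    ∃ k ∈ ([7, 8, 12, 13, 18, 20, 30] : List ℕ), B ^ k = 1 ∨ B ^ k = -1 := by
  have hχ := charpoly_eq hd hB
  have hev := eval_ne hd hB
  have hCH : ∀ q : (ZMod 3)[X], B.charpoly ∣ q → aeval B q = 0 := by
    rintro q ⟨r, rfl⟩
    rw [map_mul, Matrix.aeval_self_charpoly, zero_mul]
  have hpos : ∀ k : ℕ, B.charpoly ∣ X ^ k - 1 → B ^ k = 1 := by
    intro k hk
    have := hCH _ hk
    rwa [map_sub, map_pow, aeval_X, map_one, sub_eq_zero] at this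
  have hneg : ∀ k : ℕ, B.charpoly ∣ X ^ k + 1 → B ^ k = -1 := by
    intro k hk
    have := hCH _ hk
    rwa [map_add, map_pow, aeval_X, map_one, ← eq_neg_iff_add_eq_zero] at this
  obtain ⟨a, ha⟩ : ∃ a, a = B.charpoly.coeff 5 := ⟨_, rfl⟩
  obtain ⟨b, hb⟩ : ∃ b, b = B.charpoly.coeff 4 := ⟨_, rfl⟩
  obtain ⟨c, hc⟩ : ∃ c, c = B.charpoly.coeff 3 := ⟨_, rfl⟩
  rw [← ha, ← hb, ← hc] at hχ
  have hev' : 2 + 2 * a + 2 * b + c ≠ -1 := by
    intro h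
    apply hev
    rw [hχ]
    simp only [eval_add, eval_mul, eval_pow, eval_X, eval_C, eval_one, one_pow, mul_one]
    rw [← h]; ring
  have h27 : ∀ a b c : ZMod 3, 2 + 2 * a + 2 * b + c ≠ -1 → (a, b, c) ∈ ([(0, 0, 2), (0, 1, 0), (0, 2, 1), (1, 0, 0),
      (1, 1, 1), (1, 2, 2), (2, 0, 1), (2, 1, 2), (2, 2, 0), (0, 0, 1), (0, 1, 2), (0, 2, 0), (1, 0, 2), (1, 2, 1),
      (2, 0, 0), (2, 2, 2), (1, 1, 0), (2, 1, 1)] : List (ZMod 3 × ZMod 3 × ZMod 3)) := by decide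
  have h28 := h27 a b c hev'
  simp only [List.mem_cons, Prod.mk.injEq, List.not_mem_nil, or_false] at h28
  rcases h28 with h | h | h | h | h | h | h | h | h | h | h | h | h | h | h | h | h | h <;>
    obtain ⟨rfl, rfl, rfl⟩ := h
  · exact ⟨18, by decide, Or.inl (hpos _ (hχ ▸ c002))⟩
  · exact ⟨8, by decide, Or.inl (hpos _ (hχ ▸ c010))⟩
  · exact ⟨13, by decide, Or.inr (hneg _ (hχ ▸ c021))⟩
  · exact ⟨30, by decide, Or.inl (hpos _ (hχ ▸ c100))⟩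
  · exact ⟨7, by decide, Or.inl (hpos _ (hχ ▸ c111))⟩
  · exact ⟨20, by decide, Or.inl (hpos _ (hχ ▸ c122))⟩
  · exact ⟨12, by decide, Or.inl (hpos _ (hχ ▸ c201))⟩
  · exact ⟨7, by decide, Or.inr (hneg _ (hχ ▸ c212))⟩
  · exact ⟨13, by decide, Or.inr (hneg _ (hχ ▸ c220))⟩
  · exact ⟨18, by decide, Or.inl (hpos _ (hχ ▸ c001))⟩
  · exact ⟨30, by decide, Or.inl (hpos _ (hχ ▸ c012))⟩
  · exact ⟨12, by decide, Or.inl (hpos _ (hχ ▸ c020))⟩
  · exact ⟨12, by decide, Or.inl (hpos _ (hχ ▸ c102))⟩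
  · exact ⟨18, by decide, Or.inl (hpos _ (hχ ▸ c121))⟩
  · exact ⟨30, by decide, Or.inl (hpos _ (hχ ▸ c200))⟩
  · exact ⟨18, by decide, Or.inl (hpos _ (hχ ▸ c222))⟩
  · refine ⟨8, by decide, Or.inl ?_⟩
    rw [s110] at hχ
    have h1 := special hd hB 2 (by norm_num) (X ^ 4 + 1) (by simp; decide) hχ
    rw [show 2 - 1 = 1 from rfl, pow_one] at h1
    obtain ⟨r, hr⟩ := d110
    have h2 : aeval B (X ^ 8 - 1 : (ZMod 3)[X]) = 0 := by rw [hr, map_mul, h1, zero_mul]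
    rwa [map_sub, map_pow, aeval_X, map_one, sub_eq_zero] at h2
  · refine ⟨12, by decide, Or.inl ?_⟩
    rw [s211] at hχ
    have h1 := special hd hB 4 (by norm_num) (X ^ 2 + 1) (by simp; decide) hχ
    rw [show 4 - 1 = 3 from rfl] at h1
    obtain ⟨r, hr⟩ := d211
    have h2 : aeval B (X ^ 12 - 1 : (ZMod 3)[X]) = 0 := by rw [hr, map_mul, h1, zero_mul]
    rwa [map_sub, map_pow, aeval_X, map_one, sub_eq_zero] at h2

end facts

end Cfsg.Agent.H450.LSix
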