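import Mathlib
import Cfsg.Agent.H407.Spec

/-!
# Elements of `PSL(6, 3)` of orders 14, 16, 24, 26, 36, 40, 60 (helper450)
-/

set_option autoImplicit false
set_option maxRecDepth 100000

namespace Cfsg.Agent.H450.LSix.Ords

open Cfsg.Agent.H407 Cfsg.Agent.H407.Mats

theorem pw {G : Type*} [Monoid G] {x a b c : G} {m n : ℕ} (ha : x ^ m = a) (hb : x ^ n = b) (h : a * b = c) :
    x ^ (m + n) = c := by
  rw [pow_add, ha, hb, h]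

def e14_1 : SL6 := ⟨!![0,0,0,0,0,2;1,0,0,0,0,2;0,1,0,0,0,0;0,0,1,0,0,2;0,0,0,1,0,0;0,0,0,0,1,2], det_of_lap (by decide +kernel)⟩
def e14_2 : SL6 := ⟨!![0,0,0,0,2,1;0,0,0,0,2,0;1,0,0,0,0,2;0,1,0,0,2,1;0,0,1,0,0,2;0,0,0,1,2,1], det_of_lap (by decide +kernel)⟩
def e14_3 : SL6 := ⟨!![0,0,0,2,1,2;0,0,0,2,0,0;0,0,0,0,2,0;1,0,0,2,1,1;0,1,0,0,2,1;0,0,1,2,1,1], det_of_lap (by decide +kernel)⟩
def e14_6 : SL6 := ⟨!![2,1,2,2,0,2;2,0,0,1,2,2;0,2,0,0,1,2;2,1,1,2,0,0;0,2,1,1,2,0;2,1,1,0,1,1], det_of_lap (by decide +kernel)⟩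
def e14_7 : SL6 := ⟨!![1,2,2,0,2,2;0,0,1,2,2,1;2,0,0,1,2,2;1,1,2,0,0,1;2,1,1,2,0,0;1,1,0,1,1,2], det_of_lap (by decide +kernel)⟩
def e14_14 : SL6 := ⟨!![2,0,0,0,0,0;0,2,0,0,0,0;0,0,2,0,0,0;0,0,0,2,0,0;0,0,0,0,2,0;0,0,0,0,0,2], det_of_lap (by decide +kernel)⟩
theorem m14_2 : e14_1 * e14_1 = e14_2 := by decide +kernel
theorem m14_3 : e14_2 * e14_1 = e14_3 := by decide +kernel
theorem m14_6 : e14_3 * e14_3 = e14_6 := by decide +kernel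
theorem m14_7 : e14_6 * e14_1 = e14_7 := by decide +kernel
theorem m14_14 : e14_7 * e14_7 = e14_14 := by decide +kernel
theorem p14_1 : e14_1 ^ 1 = e14_1 := pow_one _
theorem p14_2 : e14_1 ^ 2 = e14_2 := pw (m := 1) (n := 1) p14_1 p14_1 m14_2
theorem p14_3 : e14_1 ^ 3 = e14_3 := pw (m := 2) (n := 1) p14_2 p14_1 m14_3
theorem p14_6 : e14_1 ^ 6 = e14_6 := pw (m := 3) (n := 3) p14_3 p14_3 m14_6
theorem p14_7 : e14_1 ^ 7 = e14_7 := pw (m := 6) (n := 1) p14_6 p14_1 m14_7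
theorem p14_14 : e14_1 ^ 14 = e14_14 := pw (m := 7) (n := 7) p14_7 p14_7 m14_14
theorem has14 : ∃ x : L6, orderOf x = 14 := by
  refine ⟨pr e14_1, orderOf_eq_of_pow_and_pow_div_prime (by norm_num) ?_ ?_⟩
  · rw [← map_pow, p14_14, pr_eq_one]; decide +kernel
  · intro q hq hd
    have h : q = 2 ∨ q = 7 := (by decide +kernel : ∀ q ∈ Finset.range 15, Nat.Prime q → q ∣ 14 → q = 2 ∨ q = 7) q
      (Finset.mem_range.2 (Nat.lt_succ_of_le (Nat.le_of_dvd (by norm_num) hd))) hq hd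
    rcases h with rfl | rfl
    · rw [show 14 / 2 = 7 from rfl, ← map_pow, p14_7, Ne, pr_eq_one]; decide +kernel
    · rw [show 14 / 7 = 2 from rfl, ← map_pow, p14_2, Ne, pr_eq_one]; decide +kernel

def e16_1 : SL6 := ⟨!![0,0,0,0,0,2;1,0,0,0,0,0;0,1,0,0,0,0;0,0,1,0,0,0;0,0,0,1,0,2;0,0,0,0,1,0], det_of_lap (by decide +kernel)⟩
def e16_2 : SL6 := ⟨!![0,0,0,0,2,0;0,0,0,0,0,2;1,0,0,0,0,0;0,1,0,0,0,0;0,0,1,0,2,0;0,0,0,1,0,2], det_of_lap (by decide +kernel)⟩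
def e16_4 : SL6 := ⟨!![0,0,2,0,1,0;0,0,0,2,0,1;0,0,0,0,2,0;0,0,0,0,0,2;1,0,2,0,1,0;0,1,0,2,0,1], det_of_lap (by decide +kernel)⟩
def e16_8 : SL6 := ⟨!![1,0,2,0,2,0;0,1,0,2,0,2;2,0,1,0,2,0;0,2,0,1,0,2;1,0,1,0,0,0;0,1,0,1,0,0], det_of_lap (by decide +kernel)⟩
def e16_16 : SL6 := ⟨!![1,0,0,0,0,0;0,1,0,0,0,0;0,0,1,0,0,0;0,0,0,1,0,0;0,0,0,0,1,0;0,0,0,0,0,1], det_of_lap (by decide +kernel)⟩
theorem m16_2 : e16_1 * e16_1 = e16_2 := by decide +kernel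
theorem m16_4 : e16_2 * e16_2 = e16_4 := by decide +kernel
theorem m16_8 : e16_4 * e16_4 = e16_8 := by decide +kernel
theorem m16_16 : e16_8 * e16_8 = e16_16 := by decide +kernel
theorem p16_1 : e16_1 ^ 1 = e16_1 := pow_one _
theorem p16_2 : e16_1 ^ 2 = e16_2 := pw (m := 1) (n := 1) p16_1 p16_1 m16_2
theorem p16_4 : e16_1 ^ 4 = e16_4 := pw (m := 2) (n := 2) p16_2 p16_2 m16_4
theorem p16_8 : e16_1 ^ 8 = e16_8 := pw (m := 4) (n := 4) p16_4 p16_4 m16_8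
theorem p16_16 : e16_1 ^ 16 = e16_16 := pw (m := 8) (n := 8) p16_8 p16_8 m16_16
theorem has16 : ∃ x : L6, orderOf x = 16 := by
  refine ⟨pr e16_1, orderOf_eq_of_pow_and_pow_div_prime (by norm_num) ?_ ?_⟩
  · rw [← map_pow, p16_16, pr_eq_one]; decide +kernel
  · intro q hq hd
    have h : q = 2 := (by decide +kernel : ∀ q ∈ Finset.range 17, Nat.Prime q → q ∣ 16 → q = 2) q
      (Finset.mem_range.2 (Nat.lt_succ_of_le (Nat.le_of_dvd (by norm_num) hd))) hq hd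
    rcases h with rfl
    · rw [show 16 / 2 = 8 from rfl, ← map_pow, p16_8, Ne, pr_eq_one]; decide +kernel

def e24_1 : SL6 := ⟨!![0,0,0,0,0,2;1,0,0,0,0,2;0,1,0,0,0,0;0,0,1,0,0,0;0,0,0,1,0,0;0,0,0,0,1,1], det_of_lap (by decide +kernel)⟩
def e24_2 : SL6 := ⟨!![0,0,0,0,2,2;0,0,0,0,2,1;1,0,0,0,0,2;0,1,0,0,0,0;0,0,1,0,0,0;0,0,0,1,1,1], det_of_lap (by decide +kernel)⟩
def e24_4 : SL6 := ⟨!![0,0,2,2,2,2;0,0,2,1,1,1;0,0,0,2,1,1;0,0,0,0,2,1;1,0,0,0,0,2;0,1,1,1,1,1], det_of_lap (by decide +kernel)⟩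
def e24_8 : SL6 := ⟨!![2,2,2,0,2,1;1,1,1,2,2,0;1,1,1,1,2,2;2,1,1,1,1,2;0,2,1,1,1,1;1,1,0,1,2,0], det_of_lap (by decide +kernel)⟩
def e24_3 : SL6 := ⟨!![0,0,0,2,2,2;0,0,0,2,1,1;0,0,0,0,2,1;1,0,0,0,0,2;0,1,0,0,0,0;0,0,1,1,1,1], det_of_lap (by decide +kernel)⟩
def e24_6 : SL6 := ⟨!![2,2,2,2,2,0;2,1,1,1,1,2;0,2,1,1,1,1;0,0,2,1,1,1;0,0,0,2,1,1;1,1,1,1,0,1], det_of_lap (by decide +kernel)⟩
def e24_12 : SL6 := ⟨!![2,1,0,2,0,1;2,0,1,2,2,1;2,2,0,1,2,2;1,2,2,0,1,2;1,1,2,2,0,1;2,0,1,0,2,2], det_of_lap (by decide +kernel)⟩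
def e24_24 : SL6 := ⟨!![1,0,0,0,0,0;0,1,0,0,0,0;0,0,1,0,0,0;0,0,0,1,0,0;0,0,0,0,1,0;0,0,0,0,0,1], det_of_lap (by decide +kernel)⟩
theorem m24_2 : e24_1 * e24_1 = e24_2 := by decide +kernel
theorem m24_4 : e24_2 * e24_2 = e24_4 := by decide +kernel
theorem m24_8 : e24_4 * e24_4 = e24_8 := by decide +kernel
theorem m24_3 : e24_2 * e24_1 = e24_3 := by decide +kernel
theorem m24_6 : e24_3 * e24_3 = e24_6 := by decide +kernel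
theorem m24_12 : e24_6 * e24_6 = e24_12 := by decide +kernel
theorem m24_24 : e24_12 * e24_12 = e24_24 := by decide +kernel
theorem p24_1 : e24_1 ^ 1 = e24_1 := pow_one _
theorem p24_2 : e24_1 ^ 2 = e24_2 := pw (m := 1) (n := 1) p24_1 p24_1 m24_2
theorem p24_4 : e24_1 ^ 4 = e24_4 := pw (m := 2) (n := 2) p24_2 p24_2 m24_4
theorem p24_8 : e24_1 ^ 8 = e24_8 := pw (m := 4) (n := 4) p24_4 p24_4 m24_8
theorem p24_3 : e24_1 ^ 3 = e24_3 := pw (m := 2) (n := 1) p24_2 p24_1 m24_3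
theorem p24_6 : e24_1 ^ 6 = e24_6 := pw (m := 3) (n := 3) p24_3 p24_3 m24_6
theorem p24_12 : e24_1 ^ 12 = e24_12 := pw (m := 6) (n := 6) p24_6 p24_6 m24_12
theorem p24_24 : e24_1 ^ 24 = e24_24 := pw (m := 12) (n := 12) p24_12 p24_12 m24_24
theorem has24 : ∃ x : L6, orderOf x = 24 := by
  refine ⟨pr e24_1, orderOf_eq_of_pow_and_pow_div_prime (by norm_num) ?_ ?_⟩
  · rw [← map_pow, p24_24, pr_eq_one]; decide +kernel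
  · intro q hq hd
    have h : q = 2 ∨ q = 3 := (by decide +kernel : ∀ q ∈ Finset.range 25, Nat.Prime q → q ∣ 24 → q = 2 ∨ q = 3) q
      (Finset.mem_range.2 (Nat.lt_succ_of_le (Nat.le_of_dvd (by norm_num) hd))) hq hd
    rcases h with rfl | rfl
    · rw [show 24 / 2 = 12 from rfl, ← map_pow, p24_12, Ne, pr_eq_one]; decide +kernel
    · rw [show 24 / 3 = 8 from rfl, ← map_pow, p24_8, Ne, pr_eq_one]; decide +kernel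

def e26_1 : SL6 := ⟨!![0,0,0,0,0,2;1,0,0,0,0,0;0,1,0,0,0,0;0,0,1,0,0,0;0,0,0,1,0,1;0,0,0,0,1,0], det_of_lap (by decide +kernel)⟩
def e26_2 : SL6 := ⟨!![0,0,0,0,2,0;0,0,0,0,0,2;1,0,0,0,0,0;0,1,0,0,0,0;0,0,1,0,1,0;0,0,0,1,0,1], det_of_lap (by decide +kernel)⟩
def e26_3 : SL6 := ⟨!![0,0,0,2,0,2;0,0,0,0,2,0;0,0,0,0,0,2;1,0,0,0,0,0;0,1,0,1,0,1;0,0,1,0,1,0], det_of_lap (by decide +kernel)⟩
def e26_6 : SL6 := ⟨!![2,0,2,0,2,0;0,2,0,2,0,2;0,0,2,0,2,0;0,0,0,2,0,2;1,0,1,0,0,0;0,1,0,1,0,0], det_of_lap (by decide +kernel)⟩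
def e26_12 : SL6 := ⟨!![0,0,1,0,2,0;0,0,0,1,0,2;2,0,0,0,1,0;0,2,0,0,0,1;2,0,1,0,1,0;0,2,0,1,0,1], det_of_lap (by decide +kernel)⟩
def e26_13 : SL6 := ⟨!![0,1,0,2,0,2;0,0,1,0,2,0;0,0,0,1,0,2;2,0,0,0,1,0;0,1,0,1,0,2;2,0,1,0,1,0], det_of_lap (by decide +kernel)⟩
def e26_26 : SL6 := ⟨!![2,0,0,0,0,0;0,2,0,0,0,0;0,0,2,0,0,0;0,0,0,2,0,0;0,0,0,0,2,0;0,0,0,0,0,2], det_of_lap (by decide +kernel)⟩
theorem m26_2 : e26_1 * e26_1 = e26_2 := by decide +kernel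
theorem m26_3 : e26_2 * e26_1 = e26_3 := by decide +kernel
theorem m26_6 : e26_3 * e26_3 = e26_6 := by decide +kernel
theorem m26_12 : e26_6 * e26_6 = e26_12 := by decide +kernel
theorem m26_13 : e26_12 * e26_1 = e26_13 := by decide +kernel
theorem m26_26 : e26_13 * e26_13 = e26_26 := by decide +kernel
theorem p26_1 : e26_1 ^ 1 = e26_1 := pow_one _
theorem p26_2 : e26_1 ^ 2 = e26_2 := pw (m := 1) (n := 1) p26_1 p26_1 m26_2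
theorem p26_3 : e26_1 ^ 3 = e26_3 := pw (m := 2) (n := 1) p26_2 p26_1 m26_3
theorem p26_6 : e26_1 ^ 6 = e26_6 := pw (m := 3) (n := 3) p26_3 p26_3 m26_6
theorem p26_12 : e26_1 ^ 12 = e26_12 := pw (m := 6) (n := 6) p26_6 p26_6 m26_12
theorem p26_13 : e26_1 ^ 13 = e26_13 := pw (m := 12) (n := 1) p26_12 p26_1 m26_13
theorem p26_26 : e26_1 ^ 26 = e26_26 := pw (m := 13) (n := 13) p26_13 p26_13 m26_26
theorem has26 : ∃ x : L6, orderOf x = 26 := by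
  refine ⟨pr e26_1, orderOf_eq_of_pow_and_pow_div_prime (by norm_num) ?_ ?_⟩
  · rw [← map_pow, p26_26, pr_eq_one]; decide +kernel
  · intro q hq hd
    have h : q = 2 ∨ q = 13 := (by decide +kernel : ∀ q ∈ Finset.range 27, Nat.Prime q → q ∣ 26 → q = 2 ∨ q = 13) q
      (Finset.mem_range.2 (Nat.lt_succ_of_le (Nat.le_of_dvd (by norm_num) hd))) hq hd
    rcases h with rfl | rfl
    · rw [show 26 / 2 = 13 from rfl, ← map_pow, p26_13, Ne, pr_eq_one]; decide +kernel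
    · rw [show 26 / 13 = 2 from rfl, ← map_pow, p26_2, Ne, pr_eq_one]; decide +kernel

def e36_1 : SL6 := ⟨!![0,0,0,0,0,2;1,0,0,0,0,2;0,1,0,0,0,2;0,0,1,0,0,1;0,0,0,1,0,2;0,0,0,0,1,2], det_of_lap (by decide +kernel)⟩
def e36_2 : SL6 := ⟨!![0,0,0,0,2,1;0,0,0,0,2,0;1,0,0,0,2,0;0,1,0,0,1,1;0,0,1,0,2,2;0,0,0,1,2,0], det_of_lap (by decide +kernel)⟩
def e36_3 : SL6 := ⟨!![0,0,0,2,1,0;0,0,0,2,0,1;0,0,0,2,0,0;1,0,0,1,1,0;0,1,0,2,2,1;0,0,1,2,0,2], det_of_lap (by decide +kernel)⟩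
def e36_6 : SL6 := ⟨!![2,1,0,1,1,1;2,0,1,1,2,2;2,0,0,2,2,0;1,1,0,2,1,1;2,2,1,1,0,2;2,0,2,2,2,1], det_of_lap (by decide +kernel)⟩
def e36_12 : SL6 := ⟨!![2,2,1,2,1,2;0,1,0,0,0,0;1,2,2,2,1,2;1,2,1,0,1,2;0,0,0,0,1,0;1,2,1,2,1,0], det_of_lap (by decide +kernel)⟩
def e36_4 : SL6 := ⟨!![0,0,2,1,0,1;0,0,2,0,1,1;0,0,2,0,0,2;0,0,1,1,0,2;1,0,2,2,1,1;0,1,2,0,2,2], det_of_lap (by decide +kernel)⟩
def e36_8 : SL6 := ⟨!![0,1,1,1,2,2;1,1,2,2,0,1;0,2,2,0,1,2;0,2,1,1,1,2;1,1,0,2,0,0;2,2,2,1,1,2], det_of_lap (by decide +kernel)⟩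
def e36_9 : SL6 := ⟨!![1,1,1,2,2,1;1,2,2,0,1,0;2,2,0,1,2,2;2,1,1,1,2,1;1,0,2,0,0,0;2,2,1,1,2,1], det_of_lap (by decide +kernel)⟩
def e36_18 : SL6 := ⟨!![0,0,1,0,2,0;2,0,1,1,2,2;0,2,1,1,0,2;2,0,1,1,2,0;2,2,1,1,0,2;0,2,0,1,0,0], det_of_lap (by decide +kernel)⟩
def e36_36 : SL6 := ⟨!![1,0,0,0,0,0;0,1,0,0,0,0;0,0,1,0,0,0;0,0,0,1,0,0;0,0,0,0,1,0;0,0,0,0,0,1], det_of_lap (by decide +kernel)⟩
theorem m36_2 : e36_1 * e36_1 = e36_2 := by decide +kernel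
theorem m36_3 : e36_2 * e36_1 = e36_3 := by decide +kernel
theorem m36_6 : e36_3 * e36_3 = e36_6 := by decide +kernel
theorem m36_12 : e36_6 * e36_6 = e36_12 := by decide +kernel
theorem m36_4 : e36_2 * e36_2 = e36_4 := by decide +kernel
theorem m36_8 : e36_4 * e36_4 = e36_8 := by decide +kernel
theorem m36_9 : e36_8 * e36_1 = e36_9 := by decide +kernel
theorem m36_18 : e36_9 * e36_9 = e36_18 := by decide +kernel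
theorem m36_36 : e36_18 * e36_18 = e36_36 := by decide +kernel
theorem p36_1 : e36_1 ^ 1 = e36_1 := pow_one _
theorem p36_2 : e36_1 ^ 2 = e36_2 := pw (m := 1) (n := 1) p36_1 p36_1 m36_2
theorem p36_3 : e36_1 ^ 3 = e36_3 := pw (m := 2) (n := 1) p36_2 p36_1 m36_3
theorem p36_6 : e36_1 ^ 6 = e36_6 := pw (m := 3) (n := 3) p36_3 p36_3 m36_6
theorem p36_12 : e36_1 ^ 12 = e36_12 := pw (m := 6) (n := 6) p36_6 p36_6 m36_12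
theorem p36_4 : e36_1 ^ 4 = e36_4 := pw (m := 2) (n := 2) p36_2 p36_2 m36_4
theorem p36_8 : e36_1 ^ 8 = e36_8 := pw (m := 4) (n := 4) p36_4 p36_4 m36_8
theorem p36_9 : e36_1 ^ 9 = e36_9 := pw (m := 8) (n := 1) p36_8 p36_1 m36_9
theorem p36_18 : e36_1 ^ 18 = e36_18 := pw (m := 9) (n := 9) p36_9 p36_9 m36_18
theorem p36_36 : e36_1 ^ 36 = e36_36 := pw (m := 18) (n := 18) p36_18 p36_18 m36_36
theorem has36 : ∃ x : L6, orderOf x = 36 := by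
  refine ⟨pr e36_1, orderOf_eq_of_pow_and_pow_div_prime (by norm_num) ?_ ?_⟩
  · rw [← map_pow, p36_36, pr_eq_one]; decide +kernel
  · intro q hq hd
    have h : q = 2 ∨ q = 3 := (by decide +kernel : ∀ q ∈ Finset.range 37, Nat.Prime q → q ∣ 36 → q = 2 ∨ q = 3) q
      (Finset.mem_range.2 (Nat.lt_succ_of_le (Nat.le_of_dvd (by norm_num) hd))) hq hd
    rcases h with rfl | rfl
    · rw [show 36 / 2 = 18 from rfl, ← map_pow, p36_18, Ne, pr_eq_one]; decide +kernel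
    · rw [show 36 / 3 = 12 from rfl, ← map_pow, p36_12, Ne, pr_eq_one]; decide +kernel

def e40_1 : SL6 := ⟨!![0,0,0,0,0,2;1,0,0,0,0,0;0,1,0,0,0,1;0,0,1,0,0,2;0,0,0,1,0,1;0,0,0,0,1,2], det_of_lap (by decide +kernel)⟩
def e40_2 : SL6 := ⟨!![0,0,0,0,2,1;0,0,0,0,0,2;1,0,0,0,1,2;0,1,0,0,2,2;0,0,1,0,1,1;0,0,0,1,2,2], det_of_lap (by decide +kernel)⟩
def e40_4 : SL6 := ⟨!![0,0,2,1,1,1;0,0,0,2,1,1;0,0,1,2,1,0;0,0,2,2,0,2;1,0,1,1,1,2;0,1,2,2,2,2], det_of_lap (by decide +kernel)⟩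
def e40_8 : SL6 := ⟨!![1,1,1,0,2,0;1,1,1,1,0,2;1,0,0,1,2,0;0,2,1,0,0,2;1,2,1,1,1,0;2,2,0,1,0,1], det_of_lap (by decide +kernel)⟩
def e40_5 : SL6 := ⟨!![0,2,1,1,1,1;0,0,2,1,1,1;0,1,2,1,0,0;0,2,2,0,2,1;0,1,1,1,2,1;1,2,2,2,2,0], det_of_lap (by decide +kernel)⟩
def e40_10 : SL6 := ⟨!![1,0,2,0,2,1;1,1,0,2,0,2;0,1,2,0,0,2;1,0,0,2,2,1;1,1,1,0,0,1;0,1,0,1,2,1], det_of_lap (by decide +kernel)⟩
def e40_20 : SL6 := ⟨!![0,2,2,1,1,2;1,0,2,2,1,1;1,2,1,1,1,2;2,0,1,2,2,0;2,0,1,0,1,0;1,1,2,2,1,0], det_of_lap (by decide +kernel)⟩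
def e40_40 : SL6 := ⟨!![1,0,0,0,0,0;0,1,0,0,0,0;0,0,1,0,0,0;0,0,0,1,0,0;0,0,0,0,1,0;0,0,0,0,0,1], det_of_lap (by decide +kernel)⟩
theorem m40_2 : e40_1 * e40_1 = e40_2 := by decide +kernel
theorem m40_4 : e40_2 * e40_2 = e40_4 := by decide +kernel
theorem m40_8 : e40_4 * e40_4 = e40_8 := by decide +kernel
theorem m40_5 : e40_4 * e40_1 = e40_5 := by decide +kernel
theorem m40_10 : e40_5 * e40_5 = e40_10 := by decide +kernel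
theorem m40_20 : e40_10 * e40_10 = e40_20 := by decide +kernel
theorem m40_40 : e40_20 * e40_20 = e40_40 := by decide +kernel
theorem p40_1 : e40_1 ^ 1 = e40_1 := pow_one _
theorem p40_2 : e40_1 ^ 2 = e40_2 := pw (m := 1) (n := 1) p40_1 p40_1 m40_2
theorem p40_4 : e40_1 ^ 4 = e40_4 := pw (m := 2) (n := 2) p40_2 p40_2 m40_4
theorem p40_8 : e40_1 ^ 8 = e40_8 := pw (m := 4) (n := 4) p40_4 p40_4 m40_8
theorem p40_5 : e40_1 ^ 5 = e40_5 := pw (m := 4) (n := 1) p40_4 p40_1 m40_5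
theorem p40_10 : e40_1 ^ 10 = e40_10 := pw (m := 5) (n := 5) p40_5 p40_5 m40_10
theorem p40_20 : e40_1 ^ 20 = e40_20 := pw (m := 10) (n := 10) p40_10 p40_10 m40_20
theorem p40_40 : e40_1 ^ 40 = e40_40 := pw (m := 20) (n := 20) p40_20 p40_20 m40_40
theorem has40 : ∃ x : L6, orderOf x = 40 := by
  refine ⟨pr e40_1, orderOf_eq_of_pow_and_pow_div_prime (by norm_num) ?_ ?_⟩
  · rw [← map_pow, p40_40, pr_eq_one]; decide +kernel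
  · intro q hq hd
    have h : q = 2 ∨ q = 5 := (by decide +kernel : ∀ q ∈ Finset.range 41, Nat.Prime q → q ∣ 40 → q = 2 ∨ q = 5) q
      (Finset.mem_range.2 (Nat.lt_succ_of_le (Nat.le_of_dvd (by norm_num) hd))) hq hd
    rcases h with rfl | rfl
    · rw [show 40 / 2 = 20 from rfl, ← map_pow, p40_20, Ne, pr_eq_one]; decide +kernel
    · rw [show 40 / 5 = 8 from rfl, ← map_pow, p40_8, Ne, pr_eq_one]; decide +kernel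

def e60_1 : SL6 := ⟨!![0,0,0,0,0,2;1,0,0,0,0,0;0,1,0,0,0,0;0,0,1,0,0,0;0,0,0,1,0,1;0,0,0,0,1,2], det_of_lap (by decide +kernel)⟩
def e60_2 : SL6 := ⟨!![0,0,0,0,2,1;0,0,0,0,0,2;1,0,0,0,0,0;0,1,0,0,0,0;0,0,1,0,1,2;0,0,0,1,2,2], det_of_lap (by decide +kernel)⟩
def e60_3 : SL6 := ⟨!![0,0,0,2,1,1;0,0,0,0,2,1;0,0,0,0,0,2;1,0,0,0,0,0;0,1,0,1,2,2;0,0,1,2,2,0], det_of_lap (by decide +kernel)⟩
def e60_6 : SL6 := ⟨!![2,1,1,0,1,2;0,2,1,1,0,1;0,0,2,1,1,0;0,0,0,2,1,1;1,2,2,0,1,2;2,2,0,2,1,0], det_of_lap (by decide +kernel)⟩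
def e60_12 : SL6 := ⟨!![0,1,1,0,0,1;2,0,1,1,0,0;1,2,0,1,1,0;0,1,2,0,1,1;1,2,0,2,0,0;2,2,0,0,2,1], det_of_lap (by decide +kernel)⟩
def e60_4 : SL6 := ⟨!![0,0,2,1,1,0;0,0,0,2,1,1;0,0,0,0,2,1;0,0,0,0,0,2;1,0,1,2,2,0;0,1,2,2,0,2], det_of_lap (by decide +kernel)⟩
def e60_5 : SL6 := ⟨!![0,2,1,1,0,1;0,0,2,1,1,0;0,0,0,2,1,1;0,0,0,0,2,1;0,1,2,2,0,1;1,2,2,0,2,1], det_of_lap (by decide +kernel)⟩
def e60_10 : SL6 := ⟨!![1,2,0,1,1,0;0,1,2,0,1,1;1,0,1,2,0,1;1,1,0,1,2,0;1,2,1,2,0,2;1,0,2,2,0,0], det_of_lap (by decide +kernel)⟩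
def e60_20 : SL6 := ⟨!![0,1,2,1,2,1;1,0,1,2,1,2;2,1,0,1,2,1;1,2,1,0,1,2;0,0,0,0,1,0;2,1,2,1,2,2], det_of_lap (by decide +kernel)⟩
def e60_7 : SL6 := ⟨!![1,1,0,1,2,0;2,1,1,0,1,2;0,2,1,1,0,1;0,0,2,1,1,0;2,2,0,1,2,1;2,0,2,1,0,2], det_of_lap (by decide +kernel)⟩
def e60_14 : SL6 := ⟨!![1,0,0,1,2,1;1,1,0,0,1,2;0,1,1,0,0,1;2,0,1,1,0,0;0,2,0,0,2,2;0,0,2,1,2,0], det_of_lap (by decide +kernel)⟩
def e60_15 : SL6 := ⟨!![0,0,1,2,1,0;1,0,0,1,2,1;1,1,0,0,1,2;0,1,1,0,0,1;2,0,0,2,2,0;0,2,1,2,0,2], det_of_lap (by decide +kernel)⟩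
def e60_30 : SL6 := ⟨!![0,0,2,2,0,1;1,0,0,2,2,0;0,1,0,0,2,2;2,0,1,0,0,2;1,2,1,2,0,2;0,1,1,0,2,1], det_of_lap (by decide +kernel)⟩
def e60_60 : SL6 := ⟨!![1,0,0,0,0,0;0,1,0,0,0,0;0,0,1,0,0,0;0,0,0,1,0,0;0,0,0,0,1,0;0,0,0,0,0,1], det_of_lap (by decide +kernel)⟩
theorem m60_2 : e60_1 * e60_1 = e60_2 := by decide +kernel
theorem m60_3 : e60_2 * e60_1 = e60_3 := by decide +kernel
theorem m60_6 : e60_3 * e60_3 = e60_6 := by decide +kernel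
theorem m60_12 : e60_6 * e60_6 = e60_12 := by decide +kernel
theorem m60_4 : e60_2 * e60_2 = e60_4 := by decide +kernel
theorem m60_5 : e60_4 * e60_1 = e60_5 := by decide +kernel
theorem m60_10 : e60_5 * e60_5 = e60_10 := by decide +kernel
theorem m60_20 : e60_10 * e60_10 = e60_20 := by decide +kernel
theorem m60_7 : e60_6 * e60_1 = e60_7 := by decide +kernel
theorem m60_14 : e60_7 * e60_7 = e60_14 := by decide +kernel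
theorem m60_15 : e60_14 * e60_1 = e60_15 := by decide +kernel
theorem m60_30 : e60_15 * e60_15 = e60_30 := by decide +kernel
theorem m60_60 : e60_30 * e60_30 = e60_60 := by decide +kernel
theorem p60_1 : e60_1 ^ 1 = e60_1 := pow_one _
theorem p60_2 : e60_1 ^ 2 = e60_2 := pw (m := 1) (n := 1) p60_1 p60_1 m60_2
theorem p60_3 : e60_1 ^ 3 = e60_3 := pw (m := 2) (n := 1) p60_2 p60_1 m60_3
theorem p60_6 : e60_1 ^ 6 = e60_6 := pw (m := 3) (n := 3) p60_3 p60_3 m60_6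
theorem p60_12 : e60_1 ^ 12 = e60_12 := pw (m := 6) (n := 6) p60_6 p60_6 m60_12
theorem p60_4 : e60_1 ^ 4 = e60_4 := pw (m := 2) (n := 2) p60_2 p60_2 m60_4
theorem p60_5 : e60_1 ^ 5 = e60_5 := pw (m := 4) (n := 1) p60_4 p60_1 m60_5
theorem p60_10 : e60_1 ^ 10 = e60_10 := pw (m := 5) (n := 5) p60_5 p60_5 m60_10
theorem p60_20 : e60_1 ^ 20 = e60_20 := pw (m := 10) (n := 10) p60_10 p60_10 m60_20
theorem p60_7 : e60_1 ^ 7 = e60_7 := pw (m := 6) (n := 1) p60_6 p60_1 m60_7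
theorem p60_14 : e60_1 ^ 14 = e60_14 := pw (m := 7) (n := 7) p60_7 p60_7 m60_14
theorem p60_15 : e60_1 ^ 15 = e60_15 := pw (m := 14) (n := 1) p60_14 p60_1 m60_15
theorem p60_30 : e60_1 ^ 30 = e60_30 := pw (m := 15) (n := 15) p60_15 p60_15 m60_30
theorem p60_60 : e60_1 ^ 60 = e60_60 := pw (m := 30) (n := 30) p60_30 p60_30 m60_60
theorem has60 : ∃ x : L6, orderOf x = 60 := by
  refine ⟨pr e60_1, orderOf_eq_of_pow_and_pow_div_prime (by norm_num) ?_ ?_⟩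
  · rw [← map_pow, p60_60, pr_eq_one]; decide +kernel
  · intro q hq hd
    have h : q = 2 ∨ q = 3 ∨ q = 5 := (by decide +kernel : ∀ q ∈ Finset.range 61, Nat.Prime q → q ∣ 60 → q = 2 ∨ q = 3 ∨ q = 5) q
      (Finset.mem_range.2 (Nat.lt_succ_of_le (Nat.le_of_dvd (by norm_num) hd))) hq hd
    rcases h with rfl | rfl | rfl
    · rw [show 60 / 2 = 30 from rfl, ← map_pow, p60_30, Ne, pr_eq_one]; decide +kernel
    · rw [show 60 / 3 = 20 from rfl, ← map_pow, p60_20, Ne, pr_eq_one]; decide +kernel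
    · rw [show 60 / 5 = 12 from rfl, ← map_pow, p60_12, Ne, pr_eq_one]; decide +kernel

end Cfsg.Agent.H450.LSix.Ords
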