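import Mathlib
import Cfsg.Agent.H407.Aut
import Cfsg.Agent.S0249
import Cfsg.Agent.H450.LSix.Cosq
import Cfsg.Agent.H450.LSix.Ords
import Cfsg.Agent.H450.LSix.No28

/-!
# Groups isospectral to `PSL(6, 3)`: the extensions of index two (helper450)

`H0` is `PSL(6, 3)` extended by the inverse transpose automorphism; `range_eq` : it has the same element orders as
`PSL(6, 3)`; `classify` : a group `H` with the same element orders and a normal subgroup `N ≃ PSL(6, 3)` of index at
most two with trivial centralizer is isomorphic to `PSL(6, 3)` or `H0`.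
-/

set_option autoImplicit false
set_option maxRecDepth 100000

namespace Cfsg.Agent.H450.LSix

open Matrix
open Cfsg.Agent.H407 Cfsg.Agent.H407.Mats
open Cfsg.Agent.ClassicalGeometry.AutPSL.Auto (cj lift itr coe_cj coe_itr itr_mul_itr)

theorem simple_L : IsSimpleGroup L6 := S0249.result 6 (by norm_num)

theorem not_comm : ¬ ∀ a b : L6, a * b = b * a := by
  intro h
  have h1 := h (pr w1) (pr Aut.tv)
  rw [← map_mul, ← map_mul, ← mul_inv_eq_one, ← map_inv, ← map_mul, pr_eq_one, mul_inv_eq_one,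
    mul_inv_eq_iff_eq_mul] at h1
  revert h1
  decide +kernel

theorem center_L : Subgroup.center L6 = ⊥ := by
  have := simple_L
  rcases (inferInstance : (Subgroup.center L6).Normal).eq_bot_or_eq_top with h | h
  · exact h
  · exfalso
    apply not_comm
    intro a b
    have h1 : b ∈ Subgroup.center L6 := by rw [h]; exact Subgroup.mem_top _
    exact Subgroup.mem_center_iff.1 h1 a

theorem conj_inj : Function.Injective (MulAut.conj : L6 →* MulAut L6) := by
  rw [injective_iff_map_eq_one]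
  intro a ha
  have h1 : a ∈ Subgroup.center L6 := by
    rw [Subgroup.mem_center_iff]
    intro g
    have := congrArg (fun f : MulAut L6 => f g) ha
    simp only [MulAut.conj_apply, MulAut.one_apply] at this
    rw [mul_inv_eq_iff_eq_mul] at this
    exact this.symm
  rwa [center_L, Subgroup.mem_bot] at h1

/-! ### the square of an outer automorphism -/

theorem sq_eq (Cm : GL (Fin 6) (ZMod 3)) (A : SL6) (hA : A.1 * Cm.1ᵀ = Cm.1) :
    lift (cj Cm * itr) * lift (cj Cm * itr) = MulAut.conj (pr A) := by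
  have h1 : (cj Cm * itr) * (cj Cm * itr) = MulAut.conj A := by
    apply MulEquiv.ext
    intro g
    change cj Cm (itr (cj Cm (itr g))) = A * g * A⁻¹
    rw [eq_mul_inv_iff_mul_eq]
    apply Subtype.ext
    change (cj Cm (itr (cj Cm (itr g)))).1 * A.1 = A.1 * g.1
    rw [coe_cj, coe_itr, ← map_inv, ← map_inv, coe_cj, coe_itr, inv_inv]
    have hu : Cm.1 * (Cm⁻¹ : GL (Fin 6) (ZMod 3)).1 = 1 := by rw [← Units.val_mul, mul_inv_cancel, Units.val_one]
    have hu' : (Cm⁻¹ : GL (Fin 6) (ZMod 3)).1 * Cm.1 = 1 := by rw [← Units.val_mul, inv_mul_cancel, Units.val_one]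
    have e1 : Cm.1ᵀ * (Cm⁻¹ : GL (Fin 6) (ZMod 3)).1ᵀ = 1 := by rw [← transpose_mul, hu', transpose_one]
    have e1' : (Cm⁻¹ : GL (Fin 6) (ZMod 3)).1ᵀ * Cm.1ᵀ = 1 := by rw [← transpose_mul, hu, transpose_one]
    have hA' : A.1 = Cm.1 * (Cm⁻¹ : GL (Fin 6) (ZMod 3)).1ᵀ := by
      conv_rhs => rw [← hA, mul_assoc, e1, mul_one]
    rw [hA', transpose_mul, transpose_mul, transpose_transpose]
    simp only [mul_assoc]
    rw [← mul_assoc (Cm⁻¹ : GL (Fin 6) (ZMod 3)).1 Cm.1, hu', one_mul, e1, mul_one]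
  rw [← map_mul, h1]
  apply MulEquiv.ext
  intro x
  obtain ⟨g, rfl⟩ := pr_surj x
  rfl

/-- the graph automorphism -/
def γ : MulAut L6 := lift itr

theorem γ_sq : γ * γ = 1 := by rw [γ, ← map_mul, itr_mul_itr, map_one]

theorem γ_conj (x : L6) : γ * MulAut.conj x = MulAut.conj (γ x) * γ := by
  apply MulEquiv.ext
  intro y
  change γ (x * y * x⁻¹) = γ x * γ y * (γ x)⁻¹
  rw [map_mul, map_mul, map_inv]

/-- `PSL(6, 3)` extended by the inverse transpose automorphism -/
def H0 : Subgroup (MulAut L6) where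
  carrier := {α | ∃ x, α = MulAut.conj x ∨ α = MulAut.conj x * γ}
  one_mem' := ⟨1, Or.inl (map_one _).symm⟩
  mul_mem' := by
    rintro α β ⟨x, hx⟩ ⟨y, hy⟩
    rcases hx with rfl | rfl <;> rcases hy with rfl | rfl
    · exact ⟨x * y, Or.inl (map_mul _ _ _).symm⟩
    · exact ⟨x * y, Or.inr (by rw [map_mul, mul_assoc])⟩
    · exact ⟨x * γ y, Or.inr (by rw [map_mul, mul_assoc, γ_conj, mul_assoc])⟩
    · exact ⟨x * γ y, Or.inl (by rw [map_mul, mul_assoc, ← mul_assoc γ, γ_conj, mul_assoc (MulAut.conj (γ y)), γ_sq,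
        mul_one])⟩
  inv_mem' := by
    rintro α ⟨x, hx⟩
    have hγ : γ⁻¹ = γ := inv_eq_of_mul_eq_one_left γ_sq
    rcases hx with rfl | rfl
    · exact ⟨x⁻¹, Or.inl (map_inv _ _).symm⟩
    · refine ⟨γ x⁻¹, Or.inr ?_⟩
      rw [_root_.mul_inv_rev, hγ, ← map_inv, γ_conj]

theorem mem_H0 {α : MulAut L6} : α ∈ H0 ↔ ∃ x, α = MulAut.conj x ∨ α = MulAut.conj x * γ := Iff.rfl

theorem γ_not_inner (x : L6) : γ ≠ MulAut.conj x := by
  intro h
  obtain ⟨g, rfl⟩ := pr_surj x
  have hu : IsUnit g.1.det := by rw [g.2]; exact isUnit_one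
  have h1 : MulAut.conj (pr g) = lift (cj (Matrix.SpecialLinearGroup.toGL g)) := by
    apply MulEquiv.ext
    intro x
    obtain ⟨y, rfl⟩ := pr_surj x
    rfl
  have h2 : lift (cj (Matrix.SpecialLinearGroup.toGL g)⁻¹ * Cfsg.Agent.ClassicalGeometry.AutPSL.Auto.fld
      (RingEquiv.refl (ZMod 3)) * itr) = lift (Cfsg.Agent.ClassicalGeometry.AutPSL.Auto.fld (RingEquiv.refl (ZMod 3))) := by
    have h3 : Cfsg.Agent.ClassicalGeometry.AutPSL.Auto.fld (ι := Fin 6) (RingEquiv.refl (ZMod 3)) = 1 :=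
      map_one (Cfsg.Agent.ClassicalGeometry.AutPSL.Auto.fld (ι := Fin 6) (F := ZMod 3))
    rw [h3, mul_one, map_mul, map_inv, map_inv, ← h1, map_one]
    change _ * γ = 1
    rw [h, inv_mul_cancel]
  exact Cfsg.Agent.ClassicalGeometry.AutPSL.Main.not_graph (by rw [Fintype.card_fin]; norm_num) h2

/-! ### element orders -/

/-- the element orders are closed under divisors -/
theorem of_dvd {G : Type*} [Group G] [Finite G] {x : G} {n : ℕ} (h : n ∣ orderOf x) :
    n ∈ Set.range (orderOf : G → ℕ) := by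
  obtain ⟨m, hm⟩ := h
  have hx : 0 < orderOf x := orderOf_pos x
  have hm0 : 0 < m := Nat.pos_of_ne_zero (by rintro rfl; rw [mul_zero] at hm; omega)
  refine ⟨x ^ m, ?_⟩
  rw [orderOf_pow_of_dvd hm0.ne' ⟨n, by rw [hm, mul_comm]⟩, hm, Nat.mul_div_cancel _ hm0]

theorem even_mem {k : ℕ} (hk : k ∈ ([7, 8, 12, 13, 18, 20, 30] : List ℕ)) {n : ℕ} (hn : n ∣ 2 * k) :
    n ∈ Set.range (orderOf : L6 → ℕ) := by
  have := (inferInstance : Finite L6)
  simp only [List.mem_cons, List.not_mem_nil, or_false] at hk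
  rcases hk with rfl | rfl | rfl | rfl | rfl | rfl | rfl
  · obtain ⟨x, hx⟩ := Ords.has14
    exact of_dvd (x := x) (by rw [hx]; exact hn)
  · obtain ⟨x, hx⟩ := Ords.has16
    exact of_dvd (x := x) (by rw [hx]; exact hn)
  · obtain ⟨x, hx⟩ := Ords.has24
    exact of_dvd (x := x) (by rw [hx]; exact hn)
  · obtain ⟨x, hx⟩ := Ords.has26
    exact of_dvd (x := x) (by rw [hx]; exact hn)
  · obtain ⟨x, hx⟩ := Ords.has36
    exact of_dvd (x := x) (by rw [hx]; exact hn)
  · obtain ⟨x, hx⟩ := Ords.has40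
    exact of_dvd (x := x) (by rw [hx]; exact hn)
  · obtain ⟨x, hx⟩ := Ords.has60
    exact of_dvd (x := x) (by rw [hx]; exact hn)

/-- orders of the outer elements -/
theorem outer_mem (x : L6) : orderOf (MulAut.conj x * γ) ∈ Set.range (orderOf : L6 → ℕ) := by
  obtain ⟨g, rfl⟩ := pr_surj x
  -- `B = g⁻¹ gᵀ`, `A = g g⁻ᵀ`
  have hd : g.1.det = 1 := g.2
  set B : M6 := (g⁻¹ : SL6).1 * g.1ᵀ with hB
  have hgi : g.1 * (g⁻¹ : SL6).1 = 1 := by
    change (g * g⁻¹ : SL6).1 = 1
    rw [mul_inv_cancel]; rfl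
  have hig : (g⁻¹ : SL6).1 * g.1 = 1 := by
    change (g⁻¹ * g : SL6).1 = 1
    rw [inv_mul_cancel]; rfl
  have hgB : g.1 * B = g.1ᵀ := by rw [hB, ← mul_assoc, hgi, one_mul]
  obtain ⟨k, hk, hBk⟩ := main hd hgB
  -- the element `A`
  have hAt : g.1 * (g⁻¹ : SL6).1ᵀ * g.1ᵀ = g.1 := by
    rw [mul_assoc, ← transpose_mul, hgi, transpose_one, mul_one]
  have hAd : (g.1 * (g⁻¹ : SL6).1ᵀ).det = 1 := by
    have := congrArg Matrix.det hAt
    rw [det_mul, det_transpose, hd, mul_one] at this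
    exact this
  let A : SL6 := ⟨g.1 * (g⁻¹ : SL6).1ᵀ, hAd⟩
  have hsq : (MulAut.conj (pr g) * γ) * (MulAut.conj (pr g) * γ) = MulAut.conj (pr A) := by
    have h1 : MulAut.conj (pr g) = lift (cj (Matrix.SpecialLinearGroup.toGL g)) := by
      apply MulEquiv.ext
      intro x
      obtain ⟨y, rfl⟩ := pr_surj x
      rfl
    rw [h1, γ, ← map_mul]
    exact sq_eq _ A hAt
  -- `A⁻¹ = g B g⁻¹`
  have hBd : B.det = 1 := det_B hd hgB
  let B' : SL6 := ⟨B, hBd⟩
  have hAB : A * (g * B' * g⁻¹) = 1 := by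
    apply Subtype.ext
    change g.1 * (g⁻¹ : SL6).1ᵀ * (g.1 * B * (g⁻¹ : SL6).1) = 1
    rw [hgB]
    rw [mul_assoc, ← mul_assoc (g⁻¹ : SL6).1ᵀ, ← transpose_mul, hgi, transpose_one, one_mul, hgi]
  have hA : A = g * B'⁻¹ * g⁻¹ := by
    rw [mul_eq_one_iff_eq_inv.1 hAB]
    simp only [_root_.mul_inv_rev, inv_inv, mul_assoc]
  have hBk' : pr B' ^ k = 1 := by
    rw [← map_pow, pr_eq_one]
    rcases hBk with h | h
    · left
      apply Subtype.ext
      rw [Matrix.SpecialLinearGroup.coe_pow]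
      exact h
    · right
      apply Subtype.ext
      rw [Matrix.SpecialLinearGroup.coe_pow]
      exact h
  have hAk : pr A ^ k = 1 := by
    rw [hA, map_mul, map_mul, map_inv, map_inv, conj_pow, inv_pow, hBk', inv_one, mul_one, mul_inv_cancel]
  refine even_mem hk (orderOf_dvd_of_pow_eq_one ?_)
  rw [pow_mul, pow_two, hsq, ← map_pow, hAk, map_one]

theorem range_eq : Set.range (orderOf : H0 → ℕ) = Set.range (orderOf : L6 → ℕ) := by
  ext n
  constructor
  · rintro ⟨⟨α, hα⟩, rfl⟩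
    obtain ⟨x, rfl | rfl⟩ := mem_H0.1 hα
    · rw [Subgroup.orderOf_mk]
      exact of_dvd (x := x) (orderOf_map_dvd _ x)
    · rw [Subgroup.orderOf_mk]
      exact outer_mem x
  · rintro ⟨x, rfl⟩
    refine ⟨⟨MulAut.conj x, mem_H0.2 ⟨x, Or.inl rfl⟩⟩, ?_⟩
    rw [Subgroup.orderOf_mk, orderOf_injective _ conj_inj]

theorem not_iso : ¬ Nonempty (H0 ≃* L6) := by
  rintro ⟨e⟩
  have := simple_L
  have hs : IsSimpleGroup H0 := e.isSimpleGroup
  let N : Subgroup H0 := (MulAut.conj : L6 →* MulAut L6).range.subgroupOf H0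
  have hN : N.Normal := by
    constructor
    rintro ⟨α, hα⟩ ⟨x, hx⟩ ⟨β, hβ⟩
    refine ⟨β x, ?_⟩
    change MulAut.conj x = α at hx
    change MulAut.conj (β x) = β * α * β⁻¹
    rw [← hx]
    apply MulEquiv.ext
    intro y
    change β x * y * (β x)⁻¹ = β (x * β⁻¹ y * x⁻¹)
    rw [map_mul, map_mul, map_inv]
    congr 2
    exact (β.apply_symm_apply y).symm
  rcases hN.eq_bot_or_eq_top with h | h
  · apply not_comm
    have h1 : ∀ x : L6, x = 1 := by
      intro x
      have h2 : (⟨MulAut.conj x, mem_H0.2 ⟨x, Or.inl rfl⟩⟩ : H0) ∈ N := ⟨x, rfl⟩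
      rw [h, Subgroup.mem_bot] at h2
      have h3 : MulAut.conj x = 1 := congrArg Subtype.val h2
      exact conj_inj (by rw [h3, map_one])
    intro a b
    rw [h1 a, h1 b]
  · have h1 : (⟨γ, mem_H0.2 ⟨1, Or.inr (by rw [map_one, one_mul])⟩⟩ : H0) ∈ N := by rw [h]; exact Subgroup.mem_top _
    obtain ⟨x, hx⟩ := h1
    exact γ_not_inner x hx.symm

/-! ### an element of order 28 in the coset of the product of the diagonal and the graph automorphism -/

def C28m : Matrix (Fin 6) (Fin 6) (ZMod 3) := !![0,2,1,0,0,0;1,2,0,0,0,0;0,0,0,0,0,1;0,0,2,0,1,0;1,0,0,0,0,0;0,0,0,1,0,0]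

def C28 : GL (Fin 6) (ZMod 3) := ⟨C28m, !![0,0,0,0,1,0;0,2,0,0,1,0;1,2,0,0,1,0;0,0,0,0,0,1;1,2,0,1,1,0;0,0,1,0,0,0],
  by decide +kernel, by decide +kernel⟩

theorem det_C28 : C28m.det = -1 := by rw [← Mats.lap_eq]; decide +kernel

def a1 : SL6 := ⟨!![0,1,1,0,1,1;0,1,2,0,2,0;0,0,0,1,0,0;1,1,1,0,1,2;0,0,1,0,1,0;0,0,0,0,1,0], det_of_lap (by decide +kernel)⟩
def a2 : SL6 := ⟨!![0,1,0,1,1,0;0,1,1,2,1,0;1,1,1,0,1,2;0,2,1,1,0,1;0,0,1,1,1,0;0,0,1,0,1,0], det_of_lap (by decide +kernel)⟩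
def a4 : SL6 := ⟨!![0,0,0,1,2,1;1,0,2,2,0,1;1,0,2,1,0,2;1,2,2,2,1,0;1,0,0,2,2,0;1,1,2,1,2,2], det_of_lap (by decide +kernel)⟩
def a6 : SL6 := ⟨!![0,2,1,0,0,1;2,1,2,0,1,0;2,2,2,2,2,2;2,0,1,2,0,0;0,2,1,2,0,2;2,0,2,0,2,2], det_of_lap (by decide +kernel)⟩
def a7 : SL6 := ⟨!![0,2,1,1,2,0;0,0,2,2,2,2;2,0,1,2,0,0;2,1,1,1,1,0;2,1,0,1,2,1;0,2,1,2,0,2], det_of_lap (by decide +kernel)⟩

theorem a1_rel : a1.1 * C28.1ᵀ = C28.1 := by
  change a1.1 * C28mᵀ = C28m
  decide +kernel

theorem pa1 : a1 ^ 1 = a1 := pow_one _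
theorem pa2 : a1 ^ 2 = a2 := Ords.pw (m := 1) (n := 1) pa1 pa1 (by decide +kernel)
theorem pa4 : a1 ^ 4 = a4 := Ords.pw (m := 2) (n := 2) pa2 pa2 (by decide +kernel)
theorem pa6 : a1 ^ 6 = a6 := Ords.pw (m := 4) (n := 2) pa4 pa2 (by decide +kernel)
theorem pa7 : a1 ^ 7 = a7 := Ords.pw (m := 6) (n := 1) pa6 pa1 (by decide +kernel)
theorem pa14 : a1 ^ 14 = m1 := Ords.pw (m := 7) (n := 7) pa7 pa7 (by decide +kernel)

/-- an automorphism of order 28 -/
def θ : MulAut L6 := lift (cj C28 * itr)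

theorem θ_sq : θ ^ 2 = MulAut.conj (pr a1) := by rw [pow_two]; exact sq_eq C28 a1 a1_rel

theorem orderOf_θ : orderOf θ = 28 := by
  refine orderOf_eq_of_pow_and_pow_div_prime (by norm_num) ?_ ?_
  · rw [show 28 = 2 * 14 from rfl, pow_mul, θ_sq, ← map_pow, ← map_pow, pa14, pr_m1, map_one]
  · intro q hq hd
    have h : q = 2 ∨ q = 7 := (by decide +kernel : ∀ q ∈ Finset.range 29, Nat.Prime q → q ∣ 28 → q = 2 ∨ q = 7) q
      (Finset.mem_range.2 (Nat.lt_succ_of_le (Nat.le_of_dvd (by norm_num) hd))) hq hd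
    rcases h with rfl | rfl
    · rw [show 28 / 2 = 2 * 7 from rfl, pow_mul, θ_sq, ← map_pow, ← map_pow, pa7]
      intro h
      have h1 : pr a7 = 1 := conj_inj (by rw [h, map_one])
      rw [pr_eq_one] at h1
      revert h1
      decide +kernel
    · rw [show 28 / 7 = 2 * 2 from rfl, pow_mul, θ_sq, ← map_pow, ← map_pow, pa2]
      intro h
      have h1 : pr a2 = 1 := conj_inj (by rw [h, map_one])
      rw [pr_eq_one] at h1
      revert h1
      decide +kernel

/-! ### classification -/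

theorem ringEquiv_eq (σ : ZMod 3 ≃+* ZMod 3) : σ = RingEquiv.refl (ZMod 3) := by
  ext x
  revert x
  have h0 := map_zero σ
  have h1 := map_one σ
  have h2 : σ 2 = 2 := by
    rw [show (2 : ZMod 3) = 1 + 1 from rfl, map_add, h1]
  intro x
  have : x = 0 ∨ x = 1 ∨ x = 2 := by revert x; decide
  rcases this with rfl | rfl | rfl
  · exact h0
  · exact h1
  · exact h2

theorem fld_one (σ : ZMod 3 ≃+* ZMod 3) : Cfsg.Agent.ClassicalGeometry.AutPSL.Auto.fld (ι := Fin 6) σ = 1 := by
  rw [ringEquiv_eq σ]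
  exact map_one (Cfsg.Agent.ClassicalGeometry.AutPSL.Auto.fld (ι := Fin 6) (F := ZMod 3))

theorem aut_form (α : MulAut L6) : ∃ A : GL (Fin 6) (ZMod 3), α = lift (cj A) ∨ α = lift (cj A * itr) := by
  have : Fact (Nat.Prime 3) := ⟨Nat.prime_three⟩
  rcases Cfsg.Agent.ClassicalGeometry.AutPSL.Main.surj_three (n := 6) (F := ZMod 3) 3 (by norm_num) α with
    ⟨A, σ, h⟩ | ⟨A, σ, h⟩
  · exact ⟨A, Or.inl (by rw [h, fld_one, mul_one])⟩
  · exact ⟨A, Or.inr (by rw [h, fld_one, mul_one])⟩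

/-- an element of `SL(6, 3)` from a matrix of determinant one -/
def ofDet (A : M6) (h : A.det = 1) : SL6 := ⟨A, h⟩

theorem lift_of_det_one (A : GL (Fin 6) (ZMod 3)) (h : A.1.det = 1) :
    lift (cj A) = MulAut.conj (pr (ofDet A.1 h)) := by
  apply MulEquiv.ext
  intro x
  obtain ⟨y, rfl⟩ := pr_surj x
  change pr (cj A y) = pr (ofDet A.1 h) * pr y * (pr (ofDet A.1 h))⁻¹
  have h1 : cj A y = ofDet A.1 h * y * (ofDet A.1 h)⁻¹ := by
    rw [eq_mul_inv_iff_mul_eq]
    apply Subtype.ext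
    change (cj A y).1 * A.1 = A.1 * y.1
    rw [coe_cj, mul_assoc, ← Units.val_mul, inv_mul_cancel, Units.val_one, mul_one]
  rw [h1, map_mul, map_mul, map_inv]

theorem det_cases (A : GL (Fin 6) (ZMod 3)) : A.1.det = 1 ∨ A.1.det = -1 := by
  have h : A.1.det ≠ 0 := by
    have := (Matrix.isUnit_iff_isUnit_det A.1).1 A.isUnit
    exact this.ne_zero
  revert h
  generalize A.1.det = d
  revert d
  decide

theorem classify {H : Type*} [Group H] [Finite H]
    (hH : Set.range (orderOf : H → ℕ) = Set.range (orderOf : L6 → ℕ)) (N : Subgroup H) [N.Normal] (e : N ≃* L6)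
    (hC : Subgroup.centralizer (N : Set H) = ⊥) (hi : N.index ≤ 2) : Nonempty (H ≃* L6) ∨ Nonempty (H ≃* H0) := by
  have hi0 : N.index ≠ 0 := Subgroup.index_ne_zero_of_finite
  have h12 : N.index = 1 ∨ N.index = 2 := by omega
  rcases h12 with h1 | h2
  · left
    rw [Subgroup.index_eq_one] at h1
    exact ⟨Subgroup.topEquiv.symm.trans ((MulEquiv.subgroupCongr h1.symm).trans e)⟩
  · right
    let c : H →* MulAut N := MulAut.conjNormal
    have hcinj : Function.Injective c := by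
      rw [injective_iff_map_eq_one]
      intro g hg
      have h1 : g ∈ Subgroup.centralizer (N : Set H) := by
        rw [Subgroup.mem_centralizer_iff]
        intro s hs
        have h2 := congrArg (fun t : MulAut N => ((t ⟨s, hs⟩ : N) : H)) hg
        change ((MulAut.conjNormal g ⟨s, hs⟩ : N) : H) = s at h2
        rw [MulAut.conjNormal_apply, mul_inv_eq_iff_eq_mul] at h2
        exact h2.symm
      rwa [hC, Subgroup.mem_bot] at h1
    let φ : H →* MulAut L6 := (MulAut.congr e).toMonoidHom.comp c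
    have hφ : ∀ (g : H) (x : L6), φ g x = e (MulAut.conjNormal g (e.symm x)) := fun g x => rfl
    have hinj : Function.Injective φ := (MulAut.congr e).injective.comp hcinj
    have hφN : ∀ n : N, φ (n : H) = MulAut.conj (e n) := by
      intro n
      apply MulEquiv.ext
      intro x
      rw [hφ]
      have h3 : MulAut.conjNormal (n : H) (e.symm x) = n * e.symm x * n⁻¹ := by
        apply Subtype.ext
        rw [MulAut.conjNormal_apply]; rfl
      rw [h3, map_mul, map_mul, map_inv, e.apply_symm_apply]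
      rfl
    have hφs : ∀ x : L6, φ ((e.symm x : N) : H) = MulAut.conj x := by
      intro x
      rw [hφN, e.apply_symm_apply]
    have hin : ∀ g : H, (∃ x, φ g = MulAut.conj x) → g ∈ N := by
      rintro g ⟨x, hx⟩
      rw [← hφs] at hx
      rw [hinj hx]
      exact (e.symm x).2
    obtain ⟨h, hh⟩ : ∃ h : H, h ∉ N := by
      by_contra hcon
      push Not at hcon
      have : N = ⊤ := by rw [eq_top_iff]; exact fun g _ => hcon g
      rw [← Subgroup.index_eq_one] at this
      omega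
    -- elements outside the image of the orders
    have hno : ∀ n : ℕ, (∀ x : L6, orderOf x ≠ n) → ∀ g : H, orderOf g ≠ n := by
      intro n hn g hg
      have h1 : n ∈ Set.range (orderOf : H → ℕ) := ⟨g, hg⟩
      rw [hH] at h1
      obtain ⟨x, hx⟩ := h1
      exact hn x hx
    obtain ⟨A, hA⟩ := aut_form (φ h)
    rcases hA with hA | hA
    · exfalso
      rcases det_cases A with hd | hd
      · exact hh (hin h ⟨_, hA.trans (lift_of_det_one A hd)⟩)
      · -- the diagonal automorphism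
        have hd' : (Aut.Dm * A).1.det = 1 := by
          rw [Units.val_mul, det_mul, hd]
          have : (Aut.Dm : GL (Fin 6) (ZMod 3)).1.det = -1 := by
            change Aut.Dmat.det = -1
            rw [← Mats.lap_eq]; decide +kernel
          rw [this]; decide
        have h3 : φ h = Aut.dg * MulAut.conj (pr (ofDet (Aut.Dm * A).1 hd')) := by
          rw [← lift_of_det_one, Aut.dg, hA, ← map_mul, ← map_mul, ← mul_assoc, Aut.Dm_sq, one_mul]
        obtain ⟨a, ha⟩ : ∃ a : L6, φ h = Aut.dg * MulAut.conj a := ⟨_, h3⟩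
        set t : H := h * ((e.symm a⁻¹ : N) : H) with ht
        have hφt : φ t = Aut.dg := by
          rw [ht, map_mul, ha, hφs, map_inv, mul_assoc, mul_inv_cancel, mul_one]
        have ht2 : orderOf t = 2 := by
          rw [← orderOf_injective φ hinj, hφt]
          refine orderOf_eq_prime ?_ Aut.dg_ne
          rw [pow_two, Aut.dg_sq]
        set x : H := ((e.symm (pr w11) : N) : H) with hx
        have hxo : orderOf x = 11 := by
          rw [hx, Subgroup.orderOf_coe, MulEquiv.orderOf_eq, Aut.orderOf_pr_w11]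
        have hcomm : Commute x t := by
          apply hinj
          rw [map_mul φ x t, map_mul φ t x, hφt, hx, hφs]
          apply MulEquiv.ext
          intro y
          change pr w11 * Aut.dg y * (pr w11)⁻¹ = Aut.dg (pr w11 * y * (pr w11)⁻¹)
          rw [map_mul, map_mul, map_inv, Aut.dg_w11]
        have h22 : orderOf (x * t) = 22 := by
          rw [hcomm.orderOf_mul_eq_mul_orderOf_of_coprime (by rw [hxo, ht2]; norm_num), hxo, ht2]
        exact hno 22 no22_L _ h22
    · rcases det_cases A with hd | hd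
      · -- the graph automorphism
        have h3 : φ h = MulAut.conj (pr (ofDet A.1 hd)) * γ := by
          rw [← lift_of_det_one, γ, ← map_mul, hA]
        obtain ⟨a, ha⟩ : ∃ a : L6, φ h = MulAut.conj a * γ := ⟨_, h3⟩
        have hrange : φ.range = H0 := by
          ext α
          rw [MonoidHom.mem_range, mem_H0]
          constructor
          · rintro ⟨y, rfl⟩
            by_cases hy : y ∈ N
            · exact ⟨e ⟨y, hy⟩, Or.inl (hφN ⟨y, hy⟩)⟩
            · have h4 : y * h⁻¹ ∈ N := by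
                rw [Subgroup.mul_mem_iff_of_index_two h2]
                constructor
                · intro h5; exact absurd h5 hy
                · intro h5
                  exact absurd ((Subgroup.inv_mem_iff N).1 h5) hh
              refine ⟨e ⟨_, h4⟩ * a, Or.inr ?_⟩
              rw [map_mul, ← hφN, mul_assoc, ← ha, ← map_mul, inv_mul_cancel_right]
          · rintro ⟨x, rfl | rfl⟩
            · exact ⟨_, hφs x⟩
            · refine ⟨((e.symm (x * a⁻¹) : N) : H) * h, ?_⟩
              rw [map_mul, hφs, ha, map_mul, map_inv, mul_assoc, inv_mul_cancel_left]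
        exact ⟨(MonoidHom.ofInjective hinj).trans (MulEquiv.subgroupCongr hrange)⟩
      · exfalso
        have hd' : (C28 * A⁻¹).1.det = 1 := by
          have h5 : (A⁻¹ : GL (Fin 6) (ZMod 3)).1.det * A.1.det = 1 := by
            rw [← det_mul, ← Units.val_mul, inv_mul_cancel, Units.val_one, det_one]
          rw [Units.val_mul, det_mul]
          change C28m.det * _ = 1
          rw [det_C28]
          rw [hd] at h5
          revert h5
          generalize (A⁻¹ : GL (Fin 6) (ZMod 3)).1.det = d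
          revert d
          decide
        have h3 : θ = MulAut.conj (pr (ofDet (C28 * A⁻¹).1 hd')) * φ h := by
          rw [← lift_of_det_one, θ, hA, ← map_mul, ← mul_assoc, ← map_mul, inv_mul_cancel_right]
        obtain ⟨a, ha⟩ : ∃ a : L6, θ = MulAut.conj a * φ h := ⟨_, h3⟩
        have h4 : φ (((e.symm a : N) : H) * h) = θ := by rw [map_mul, hφs, ha]
        have h5 : orderOf (((e.symm a : N) : H) * h) = 28 := by
          rw [← orderOf_injective φ hinj, h4, orderOf_θ]
        exact hno 28 no28 _ h5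

end Cfsg.Agent.H450.LSix
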